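import Cfsg.Agent.MulX.Rep
import Mathlib

/-!
Correspondence between a linear group and permutation tables on projective points (owner: helper58).
-/
set_option autoImplicit false

namespace Cfsg.Agent.MulX

open Cfsg.Agent.PermTab Subgroup Matrix

variable {S F ι : Type*} [Group S] [Field F] [Fintype ι] [DecidableEq ι] {n : ℕ}

/-- pairs of an element and its permutation of the projective points spanned by the `v i` -/
def projD (μ : S →* Matrix ι ι F) (v : Fin n → ι → F) : Subgroup (S × Equiv.Perm (Fin n)) where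
  carrier := {p | ∀ i, ∃ c : F, c ≠ 0 ∧ μ p.1 *ᵥ v i = c • v (p.2 i)}
  one_mem' := by
    intro i
    exact ⟨1, one_ne_zero, by simp⟩
  mul_mem' := by
    rintro ⟨a, σ⟩ ⟨b, τ⟩ ha hb i
    obtain ⟨c, hc, h1⟩ := hb i
    obtain ⟨d, hd, h2⟩ := ha (τ i)
    refine ⟨c * d, mul_ne_zero hc hd, ?_⟩
    show μ (a * b) *ᵥ v i = (c * d) • v (σ (τ i))
    rw [map_mul, ← Matrix.mulVec_mulVec, h1, Matrix.mulVec_smul, h2, smul_smul]
  inv_mem' := by
    rintro ⟨a, σ⟩ ha i
    obtain ⟨c, hc, h1⟩ := ha (σ⁻¹ i)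
    refine ⟨c⁻¹, inv_ne_zero hc, ?_⟩
    have h2 : (σ : Equiv.Perm (Fin n)) ((σ⁻¹ : Equiv.Perm (Fin n)) i) = i := Equiv.apply_symm_apply σ i
    change μ a *ᵥ v ((σ⁻¹ : Equiv.Perm (Fin n)) i) = c • v (σ ((σ⁻¹ : Equiv.Perm (Fin n)) i)) at h1
    rw [h2] at h1
    show μ a⁻¹ *ᵥ v i = c⁻¹ • v ((σ⁻¹ : Equiv.Perm (Fin n)) i)
    have h3 : v i = c⁻¹ • (μ a *ᵥ v ((σ⁻¹ : Equiv.Perm (Fin n)) i)) := by
      rw [h1, smul_smul, inv_mul_cancel₀ hc, one_smul]
    rw [h3, Matrix.mulVec_smul, Matrix.mulVec_mulVec, ← map_mul, inv_mul_cancel, map_one, Matrix.one_mulVec]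

theorem mem_projD {μ : S →* Matrix ι ι F} {v : Fin n → ι → F} {a : S} {σ : Equiv.Perm (Fin n)} :
    (a, σ) ∈ projD μ v ↔ ∀ i, ∃ c : F, c ≠ 0 ∧ μ a *ᵥ v i = c • v (σ i) := Iff.rfl

/-- a matrix for which the standard basis and a vector without zero entries are eigenvectors is scalar -/
theorem scalar_of_eigen {A : Matrix ι ι F} (hb : ∀ i, ∃ c : F, A *ᵥ (Pi.single i 1) = c • Pi.single i 1)
    {u : ι → F} (hu : ∀ i, u i ≠ 0) (h : ∃ c : F, A *ᵥ u = c • u) : ∃ c : F, A = c • (1 : Matrix ι ι F) := by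
  choose d hd using hb
  obtain ⟨c, hc⟩ := h
  have hA : ∀ i j, A i j = if i = j then d j else 0 := by
    intro i j
    have := congrFun (hd j) i
    rw [Matrix.mulVec_single_one] at this
    simp only [Matrix.col_apply, Pi.smul_apply, smul_eq_mul, Pi.single_apply, mul_ite, mul_one, mul_zero] at this
    exact this
  refine ⟨c, ?_⟩
  ext i j
  rw [hA, Matrix.smul_apply, Matrix.one_apply]
  by_cases hij : i = j
  · subst hij
    simp only [if_true, smul_eq_mul, mul_one]
    have h1 := congrFun hc i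
    rw [Matrix.mulVec, dotProduct] at h1
    have h2 : ∑ k, A i k * u k = d i * u i := by
      rw [Finset.sum_eq_single i]
      · rw [hA, if_pos rfl]
      · intro k _ hk
        rw [hA, if_neg (Ne.symm hk), zero_mul]
      · intro hi; exact absurd (Finset.mem_univ i) hi
    rw [h2, Pi.smul_apply, smul_eq_mul] at h1
    exact mul_right_cancel₀ (hu i) h1
  · rw [if_neg hij, if_neg hij, smul_zero]

theorem mem_center_of_scalar {μ : S →* Matrix ι ι F} (hμ : Function.Injective μ) {a : S}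
    (h : ∃ c : F, μ a = c • (1 : Matrix ι ι F)) : a ∈ center S := by
  obtain ⟨c, hc⟩ := h
  rw [mem_center_iff]
  intro b
  apply hμ
  rw [map_mul, map_mul, hc]
  simp

end Cfsg.Agent.MulX
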