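import Cfsg.Agent.CosetEnum.Level

/-!
Lifting families of group elements to central extensions (owner: helper58).

`expo l x w`: exponent sum of the letter `x` in the word `w`.  If the relators of a list `R1` have a triangular matrix of
exponent sums with `±1` on the diagonal, the letters can be lifted to any central extension such that these relators hold
exactly; the other relators become central.
-/
set_option autoImplicit false

namespace Cfsg.Agent.MulX

open Cfsg.Agent.CosetEnum

/-- exponent sum of the letter `x` in `w` -/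
def expo (l : List (ℕ × ℕ)) (x : ℕ) : List ℕ → ℤ
  | [] => 0
  | y :: w => (if y = x then 1 else if y = ivL l x then -1 else 0) + expo l x w

/-- one reduction step -/
def push (l : List (ℕ × ℕ)) (x : ℕ) : List ℕ → List ℕ
  | [] => [x]
  | y :: s => if y = ivL l x then s else x :: y :: s

/-- reduced word -/
def red (l : List (ℕ × ℕ)) : List ℕ → List ℕ
  | [] => []
  | x :: w => push l x (red l w)

/-- commutator word of a word and a letter -/
def cmW (l : List (ℕ × ℕ)) (w : List ℕ) (x : ℕ) : List ℕ := w ++ (x :: (invW l w ++ [ivL l x]))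

section

variable {G : Type*} [Group G] {l : List (ℕ × ℕ)} {g : ℕ → G}

theorem push_prod (hl : ∀ x, g (ivL l x) = (g x)⁻¹) (x : ℕ) (s : List ℕ) :
    ((push l x s).map g).prod = g x * (s.map g).prod := by
  cases s with
  | nil => simp [push]
  | cons y s =>
    have e : push l x (y :: s) = if y = ivL l x then s else x :: y :: s := rfl
    rw [e]
    by_cases h : y = ivL l x
    · rw [if_pos h, List.map_cons, List.prod_cons, h, hl, mul_inv_cancel_left]
    · rw [if_neg h]; simp

theorem red_prod (hl : ∀ x, g (ivL l x) = (g x)⁻¹) (w : List ℕ) : ((red l w).map g).prod = (w.map g).prod := by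
  induction w with
  | nil => rfl
  | cons x w ih => rw [red, push_prod hl, ih, List.map_cons, List.prod_cons]

theorem invW_prod (hl : ∀ x, g (ivL l x) = (g x)⁻¹) (w : List ℕ) : ((invW l w).map g).prod = ((w.map g).prod)⁻¹ := by
  induction w with
  | nil => simp [invW]
  | cons x w ih =>
    have : invW l (x :: w) = invW l w ++ [ivL l x] := by simp [invW]
    rw [this, List.map_append, List.prod_append, ih]
    simp [hl]

theorem cmW_prod (hl : ∀ x, g (ivL l x) = (g x)⁻¹) (w : List ℕ) (x : ℕ) :
    ((cmW l w x).map g).prod = (w.map g).prod * g x * ((w.map g).prod)⁻¹ * (g x)⁻¹ := by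
  unfold cmW
  rw [List.map_append, List.prod_append, List.map_cons, List.prod_cons, List.map_append, List.prod_append, invW_prod hl]
  simp [hl, mul_assoc]

/-- change of the letter `x` by the central element `c` -/
def adj (l : List (ℕ × ℕ)) (g : ℕ → G) (x : ℕ) (c : G) (y : ℕ) : G :=
  if y = x then g y * c else if y = ivL l x then g y * c⁻¹ else g y

theorem adj_prod (x : ℕ) {c : G} (hc : ∀ h, c * h = h * c) (w : List ℕ) :
    (w.map (adj l g x c)).prod = (w.map g).prod * c ^ expo l x w := by
  have hz : ∀ (n : ℤ) (h : G), c ^ n * h = h * c ^ n := fun n h => (Commute.zpow_left (show Commute c h from hc h) n)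
  induction w with
  | nil => simp [expo]
  | cons y w ih =>
    rw [List.map_cons, List.prod_cons, ih, List.map_cons, List.prod_cons, expo, zpow_add]
    unfold adj
    split_ifs with h1 h2
    · rw [zpow_one]
      calc g y * c * ((w.map g).prod * c ^ expo l x w) = g y * (c * (w.map g).prod) * c ^ expo l x w := by group
        _ = g y * (w.map g).prod * (c * c ^ expo l x w) := by rw [hc]; group
    · rw [zpow_neg_one]
      have hci : c⁻¹ * (w.map g).prod = (w.map g).prod * c⁻¹ := by
        rw [inv_mul_eq_iff_eq_mul, ← mul_assoc, hc, mul_inv_cancel_right]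
      calc g y * c⁻¹ * ((w.map g).prod * c ^ expo l x w) = g y * (c⁻¹ * (w.map g).prod) * c ^ expo l x w := by group
        _ = g y * (w.map g).prod * (c⁻¹ * c ^ expo l x w) := by rw [hci]; group
    · rw [zpow_zero, one_mul, mul_assoc]

end

/-- test: the pairs of `l` are disjoint -/
def nodupB (l : List (ℕ × ℕ)) : Bool := decide ((l.flatMap fun p => [p.1, p.2]).Nodup)

theorem ivL_of_not_mem {l : List (ℕ × ℕ)} {x : ℕ} (h : x ∉ l.flatMap fun p => [p.1, p.2]) : ivL l x = x := by
  induction l with
  | nil => rfl
  | cons p l ih =>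
    obtain ⟨a, b⟩ := p
    simp only [List.flatMap_cons, List.cons_append, List.nil_append, List.mem_cons, not_or] at h
    rw [ivL, if_neg h.1, if_neg h.2.1]
    exact ih h.2.2

theorem ivL_cons (a b : ℕ) (l : List (ℕ × ℕ)) (x : ℕ) :
    ivL ((a, b) :: l) x = if x = a then b else if x = b then a else ivL l x := rfl

theorem ivL_ivL {l : List (ℕ × ℕ)} (h : nodupB l = true) (x : ℕ) : ivL l (ivL l x) = x := by
  unfold nodupB at h
  rw [decide_eq_true_eq] at h
  induction l with
  | nil => rfl
  | cons p l ih =>
    obtain ⟨a, b⟩ := p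
    simp only [List.flatMap_cons, List.cons_append, List.nil_append, List.nodup_cons, List.mem_cons, not_or] at h
    obtain ⟨⟨hab, ha⟩, hb, hl⟩ := h
    by_cases hxa : x = a
    · subst hxa
      have e : ivL ((x, b) :: l) x = b := by rw [ivL_cons, if_pos rfl]
      rw [e, ivL_cons, if_neg (Ne.symm hab), if_pos rfl]
    · by_cases hxb : x = b
      · subst hxb
        have e : ivL ((a, x) :: l) x = a := by rw [ivL_cons, if_neg hxa, if_pos rfl]
        rw [e, ivL_cons, if_pos rfl]
      · have e : ivL ((a, b) :: l) x = ivL l x := by rw [ivL_cons, if_neg hxa, if_neg hxb]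
        rw [e]
        have h3 := ih hl
        by_cases hx : x ∈ l.flatMap fun p => [p.1, p.2]
        · have hmem : ivL l x ∈ l.flatMap fun p => [p.1, p.2] := by
            by_contra hc
            have h4 := ivL_of_not_mem hc
            rw [h4] at h3
            exact hc (by rw [h3]; exact hx)
          rw [ivL_cons, if_neg (fun e' : ivL l x = a => ha (e' ▸ hmem)), if_neg (fun e' : ivL l x = b => hb (e' ▸ hmem))]
          exact h3
        · have h4 := ivL_of_not_mem hx
          rw [h4, ivL_cons, if_neg hxa, if_neg hxb, h4]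

/-- no letter `1, …, ng` is its own inverse, and inverses of letters are letters -/
def letB (ng : ℕ) (l : List (ℕ × ℕ)) : Bool :=
  nodupB l && (List.range (ng + 1)).all (fun x => !isLet ng x || (isLet ng (ivL l x) && !Nat.beq (ivL l x) x)) &&
    l.all fun p => isLet ng p.1 && isLet ng p.2

theorem letB_let {ng : ℕ} {l : List (ℕ × ℕ)} (h : letB ng l = true) {x : ℕ} (hx : isLet ng x = true) :
    isLet ng (ivL l x) = true ∧ ivL l x ≠ x := by
  simp only [letB, Bool.and_eq_true, List.all_eq_true] at h
  have h1 := h.1.2 x (by rw [List.mem_range]; have := isLet_iff.1 hx; omega)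
  rw [hx] at h1
  simp only [Bool.not_true, Bool.false_or, Bool.and_eq_true, Bool.not_eq_true'] at h1
  refine ⟨h1.1, fun h => ?_⟩
  rw [h] at h1
  have h2 := h1.2
  rw [Nat.beq_refl] at h2
  exact Bool.noConfusion h2

theorem letB_iv {ng : ℕ} {l : List (ℕ × ℕ)} (h : letB ng l = true) (x : ℕ) : ivL l (ivL l x) = x := by
  simp only [letB, Bool.and_eq_true] at h
  exact ivL_ivL h.1.1 x

theorem letB_out {ng : ℕ} {l : List (ℕ × ℕ)} (h : letB ng l = true) {x : ℕ} (hx : isLet ng x = false) :
    isLet ng (ivL l x) = false := by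
  by_contra hc
  rw [Bool.not_eq_false] at hc
  have h1 := (letB_let h hc).1
  rw [letB_iv h, hx] at h1
  exact Bool.noConfusion h1

/-- triangular system of exponents: `(x, r)` with exponent of `x` in `r` equal to `±1`, exponents of the later letters in
`r` equal to zero; the letters of the list are letters of the alphabet -/
def triB (ng : ℕ) (l : List (ℕ × ℕ)) : List (ℕ × List ℕ) → Bool
  | [] => true
  | q :: rest => isLet ng q.1 && (expo l q.1 q.2 == 1 || expo l q.1 q.2 == -1) &&
      rest.all (fun q' => expo l q'.1 q.2 == 0) && triB ng l rest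

section

variable {Γ G : Type*} [Group Γ] [Group G] {l : List (ℕ × ℕ)} {ng : ℕ}

/-- a family of lifts -/
structure LiftF (σ : Γ →* G) (l : List (ℕ × ℕ)) (ng : ℕ) (g : ℕ → G) (f : ℕ → Γ) : Prop where
  inv : ∀ y, f (ivL l y) = (f y)⁻¹
  one : ∀ y, isLet ng y = false → f y = 1
  map : ∀ y, σ (f y) = g y

theorem exists_liftF (hlet : letB ng l = true) {σ : Γ →* G} (hs : Function.Surjective σ) {g : ℕ → G}
    (hi : ∀ y, g (ivL l y) = (g y)⁻¹) (h1 : ∀ y, isLet ng y = false → g y = 1) : ∃ f, LiftF σ l ng g f := by
  classical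
  choose s hsec using hs
  refine ⟨fun y => if isLet ng y = true then (if y < ivL l y then s (g y) else (s (g (ivL l y)))⁻¹) else 1, ?_, ?_, ?_⟩
  · intro y
    by_cases hy : isLet ng y = true
    · obtain ⟨h2, h3⟩ := letB_let hlet hy
      simp only [hy, h2, if_true, letB_iv hlet]
      rcases lt_or_gt_of_ne h3 with h4 | h4
      · rw [if_pos h4, if_neg (by omega), inv_inv]
      · rw [if_neg (by omega), if_pos h4]
    · have h2 := letB_out hlet (by simpa using hy)
      simp [hy, h2]
  · intro y hy
    simp [hy]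
  · intro y
    by_cases hy : isLet ng y = true
    · simp only [hy, if_true]
      split_ifs
      · exact hsec _
      · rw [map_inv, hsec, hi, inv_inv]
    · simp only [hy]
      simp [h1 y (by simpa using hy)]

theorem adj_liftF (hlet : letB ng l = true) {σ : Γ →* G} {g : ℕ → G} {f : ℕ → Γ} (h : LiftF σ l ng g f) {x : ℕ}
    (hx : isLet ng x = true) {c : Γ} (hc : ∀ h, c * h = h * c) (hσ : σ c = 1) : LiftF σ l ng g (adj l f x c) := by
  obtain ⟨h2, h3⟩ := letB_let hlet hx
  have hci : ∀ h, c⁻¹ * h = h * c⁻¹ := by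
    intro h
    rw [inv_mul_eq_iff_eq_mul, ← mul_assoc, hc, mul_inv_cancel_right]
  refine ⟨?_, ?_, ?_⟩
  · intro y
    unfold adj
    by_cases h4 : y = x
    · subst h4
      rw [if_neg h3, if_pos rfl, if_pos rfl, h.inv, mul_inv_rev, hci]
    · by_cases h5 : y = ivL l x
      · subst h5
        rw [letB_iv hlet, if_pos rfl, if_neg h3, if_pos rfl, mul_inv_rev, inv_inv, ← hc, h.inv, inv_inv]
      · have h6 : ivL l y ≠ x := by
          intro h7
          apply h5
          rw [← h7, letB_iv hlet]
        have h7 : ivL l y ≠ ivL l x := by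
          intro h8
          apply h4
          have := congrArg (ivL l) h8
          rwa [letB_iv hlet, letB_iv hlet] at this
        rw [if_neg h6, if_neg h7, if_neg h4, if_neg h5, h.inv]
  · intro y hy
    unfold adj
    rw [if_neg, if_neg, h.one y hy]
    · rintro rfl
      rw [h2] at hy
      exact Bool.noConfusion hy
    · rintro rfl
      rw [hx] at hy
      exact Bool.noConfusion hy
  · intro y
    unfold adj
    split_ifs
    · rw [map_mul, hσ, mul_one, h.map]
    · rw [map_mul, map_inv, hσ, inv_one, mul_one, h.map]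
    · exact h.map y

theorem LiftF.word {σ : Γ →* G} {g : ℕ → G} {f : ℕ → Γ} (h : LiftF σ l ng g f) (w : List ℕ) :
    σ (w.map f).prod = (w.map g).prod := by
  rw [map_list_prod, List.map_map]
  congr 1
  apply List.map_congr_left
  intro y _
  exact h.map y

/-- **Exact lifts** of a triangular system of relators. -/
theorem exists_exact (hlet : letB ng l = true) {σ : Γ →* G} (hs : Function.Surjective σ)
    (hc : σ.ker ≤ Subgroup.center Γ) {g : ℕ → G} (hi : ∀ y, g (ivL l y) = (g y)⁻¹)
    (h1 : ∀ y, isLet ng y = false → g y = 1) (R : List (ℕ × List ℕ)) (hR : triB ng l R = true)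
    (hRg : ∀ q ∈ R, (q.2.map g).prod = 1) :
    ∃ f, LiftF σ l ng g f ∧ ∀ q ∈ R, (q.2.map f).prod = 1 := by
  have key : ∀ (R : List (ℕ × List ℕ)) (D : List (List ℕ)), triB ng l R = true → (∀ q ∈ R, (q.2.map g).prod = 1) →
      (∀ q ∈ R, ∀ d ∈ D, expo l q.1 d = 0) →
      ∀ f, LiftF σ l ng g f → (∀ d ∈ D, (d.map f).prod = 1) →
      ∃ f', LiftF σ l ng g f' ∧ (∀ d ∈ D, (d.map f').prod = 1) ∧ ∀ q ∈ R, (q.2.map f').prod = 1 := by
    intro R
    induction R with
    | nil => intro D _ _ _ f hf hD; exact ⟨f, hf, hD, by simp⟩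
    | cons q R ih =>
      intro D hR hRg hD f hf hDf
      simp only [triB, Bool.and_eq_true, Bool.or_eq_true, beq_iff_eq, List.all_eq_true] at hR
      obtain ⟨⟨⟨hq, hk⟩, hrest⟩, htri⟩ := hR
      have ha : (q.2.map f).prod ∈ σ.ker := by
        rw [MonoidHom.mem_ker, hf.word]; exact hRg q (by simp)
      have hac : ∀ h, (q.2.map f).prod * h = h * (q.2.map f).prod :=
        fun h => (Subgroup.mem_center_iff.1 (hc ha) h).symm
      set a := (q.2.map f).prod with haa
      set k := expo l q.1 q.2 with hkk
      have hck : ∀ h, (a ^ (-k)) * h = h * a ^ (-k) := fun h => (Commute.zpow_left (show Commute a h from hac h) _)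
      have hσ : σ (a ^ (-k)) = 1 := by rw [map_zpow, MonoidHom.mem_ker.1 ha, one_zpow]
      have hf' := adj_liftF hlet hf hq hck hσ
      have e1 : (q.2.map (adj l f q.1 (a ^ (-k)))).prod = 1 := by
        rw [adj_prod q.1 hck, ← haa, ← hkk, ← zpow_mul]
        have : -k * k = -1 := by rcases hk with h | h <;> rw [h] <;> norm_num
        rw [this, zpow_neg_one, mul_inv_cancel]
      have e2 : ∀ d ∈ D, (d.map (adj l f q.1 (a ^ (-k)))).prod = 1 := by
        intro d hd
        rw [adj_prod q.1 hck, hDf d hd, hD q (by simp) d hd, zpow_zero, one_mul]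
      obtain ⟨f', g1, g2, g3⟩ := ih (q.2 :: D) htri (fun q' hq' => hRg q' (by simp [hq'])) (by
        intro q' hq' d hd
        rcases List.mem_cons.1 hd with rfl | hd
        · exact hrest q' hq'
        · exact hD q' (by simp [hq']) d hd) _ hf' (by
        intro d hd
        rcases List.mem_cons.1 hd with rfl | hd
        · exact e1
        · exact e2 d hd)
      refine ⟨f', g1, fun d hd => g2 d (by simp [hd]), ?_⟩
      intro q' hq'
      rcases List.mem_cons.1 hq' with rfl | hq'
      · exact g2 _ (by simp)
      · exact g3 q' hq'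
  obtain ⟨f, hf⟩ := exists_liftF hlet hs hi h1
  obtain ⟨f', h2, -, h3⟩ := key R [] hR hRg (by simp) f hf (by simp)
  exact ⟨f', h2, h3⟩

end

/-- all relators: the exact ones, and the commutators of the central ones with the letters -/
def allRel (l : List (ℕ × ℕ)) (ng : ℕ) (R1 : List (ℕ × List ℕ)) (R2 : List (List ℕ)) : List (List ℕ) :=
  (R1.map fun q => red l q.2) ++ R2.flatMap fun w => (List.range (ng + 1)).map fun x => red l (cmW l w x)

/-- test of the relators of the central presentation -/
def relB (l : List (ℕ × ℕ)) (ng : ℕ) (R1 : List (ℕ × List ℕ)) (R2 : List (List ℕ)) (RL : List (List ℕ × ℕ)) : Bool :=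
  (fun A => RL.all fun p => p.2 == 1 && A.contains p.1) (allRel l ng R1 R2)

/-- a family which satisfies the exact relators and for which the central relators are central is good -/
theorem good_of {G : Type*} [Group G] {l : List (ℕ × ℕ)} {ng : ℕ} {g : ℕ → G} {R1 : List (ℕ × List ℕ)}
    {R2 : List (List ℕ)} {RL : List (List ℕ × ℕ)} (hi : ∀ y, g (ivL l y) = (g y)⁻¹)
    (h1 : ∀ y, isLet ng y = false → g y = 1) (hR1 : ∀ q ∈ R1, (q.2.map g).prod = 1)
    (hR2 : ∀ w ∈ R2, ∀ x, (w.map g).prod * g x = g x * (w.map g).prod) (h : relB l ng R1 R2 RL = true) :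
    Good g ng l RL := by
  refine ⟨hi, h1, ?_⟩
  intro p hp
  simp only [relB, List.all_eq_true, Bool.and_eq_true, beq_iff_eq] at h
  obtain ⟨h2, h3⟩ := h p hp
  rw [h2, pow_one]
  rw [List.contains_iff_mem] at h3
  rcases List.mem_append.1 h3 with h3 | h3
  · obtain ⟨q, hq, h4⟩ := List.mem_map.1 h3
    rw [← h4, red_prod hi]
    exact hR1 q hq
  · obtain ⟨w, hw, h4⟩ := List.mem_flatMap.1 h3
    obtain ⟨x, _, h5⟩ := List.mem_map.1 h4
    rw [← h5, red_prod hi, cmW_prod hi, hR2 w hw x]
    group

end Cfsg.Agent.MulX
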