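import Cfsg.Agent.MulX.Lift
import Cfsg.Agent.SchurMult.Basic

/-!
Schur multipliers from presentations with central relators (owner: helper58).
-/
set_option autoImplicit false

namespace Cfsg.Agent.MulX

open Cfsg.Agent.CosetEnum Cfsg Subgroup
open scoped commutatorElement

universe u v

/-- A presentation of a finite group: letters `g` in `G`, exact relators `R1`, central relators `R2`, the relations `RL` of the
covering group. -/
structure CP {G : Type v} [Group G] (g : ℕ → G) (ng : ℕ) (l : List (ℕ × ℕ)) (R1 : List (ℕ × List ℕ))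
    (R2 : List (List ℕ)) (RL : List (List ℕ × ℕ)) : Prop where
  lets : letB ng l = true
  tri : triB ng l R1 = true
  rel : relB l ng R1 R2 RL = true
  cov : (List.range (ng + 1)).all (fun x => !isLet ng x || (R1.any fun q => q.1 == x || ivL l q.1 == x)) = true
  inv : ∀ y, g (ivL l y) = (g y)⁻¹
  one : ∀ y, isLet ng y = false → g y = 1
  ex : ∀ q ∈ R1, (q.2.map g).prod = 1
  ce : ∀ w ∈ R2, (w.map g).prod = 1
  top : Cl g ng = ⊤

section

variable {G : Type v} [Group G] {g : ℕ → G} {ng : ℕ} {l : List (ℕ × ℕ)} {R1 : List (ℕ × List ℕ)}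
  {R2 : List (List ℕ)} {RL : List (List ℕ × ℕ)}

theorem CP.good (C : CP g ng l R1 R2 RL) : Good g ng l RL :=
  good_of C.inv C.one C.ex (fun w hw x => by rw [C.ce w hw]; simp) C.rel

theorem range_eq_Cl {H K : Type*} [Group H] [Group K] {h : ℕ → H} {k : ℕ → K} {ng : ℕ} (φ : H →* K) (hφ : ∀ x, φ (h x) = k x)
    (htop : Cl h ng = ⊤) : φ.range = Cl k ng := by
  rw [MonoidHom.range_eq_map, ← htop, Cl, MonoidHom.map_closure, Cl]
  congr 1
  ext y
  simp only [Set.mem_image]
  constructor
  · rintro ⟨_, ⟨x, hx, rfl⟩, rfl⟩; exact ⟨x, hx, (hφ x).symm⟩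
  · rintro ⟨x, hx, rfl⟩; exact ⟨_, ⟨x, hx, rfl⟩, hφ x⟩

theorem qg_top (ng : ℕ) (l : List (ℕ × ℕ)) (RL : List (List ℕ × ℕ)) : Cl (qg ng l RL) ng = ⊤ := (univ_qg ng l RL).top

/-- in a stem extension the lifts generate -/
theorem CP.exists_surj (C : CP g ng l R1 R2 RL) {Γ : Type u} [Group Γ] {σ : Γ →* G} (hσ : IsStemExtension σ) :
    ∃ φ : QG ng l RL →* Γ, Function.Surjective φ ∧ ∀ x, σ (φ (qg ng l RL x)) = g x := by
  obtain ⟨hs, hc, hd⟩ := hσ
  obtain ⟨f, hf, hR⟩ := exists_exact C.lets hs hc C.inv C.one R1 C.tri C.ex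
  have hcen : ∀ w ∈ R2, ∀ x, (w.map f).prod * f x = f x * (w.map f).prod := by
    intro w hw x
    have : (w.map f).prod ∈ σ.ker := by rw [MonoidHom.mem_ker, hf.word]; exact C.ce w hw
    exact (mem_center_iff.1 (hc this) _).symm
  have hgood : Good f ng l RL := good_of hf.inv hf.one hR hcen C.rel
  obtain ⟨φ, hφ⟩ := qg_univ hgood
  refine ⟨φ, ?_, fun x => by rw [hφ, hf.map]⟩
  have hrange := range_eq_Cl φ hφ (qg_top ng l RL)
  have hmap : (φ.range).map σ = ⊤ := by
    rw [hrange, ← C.top, Cl, MonoidHom.map_closure, Cl]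
    congr 1
    ext y
    simp only [Set.mem_image]
    constructor
    · rintro ⟨_, ⟨x, hx, rfl⟩, rfl⟩; exact ⟨x, hx, (hf.map x).symm⟩
    · rintro ⟨x, hx, rfl⟩; exact ⟨_, ⟨x, hx, rfl⟩, hf.map x⟩
  have hdec : ∀ y : Γ, ∃ h ∈ φ.range, ∃ a ∈ σ.ker, y = h * a := by
    intro y
    have : σ y ∈ (φ.range).map σ := by rw [hmap]; trivial
    obtain ⟨h, hh, he⟩ := this
    exact ⟨h, hh, h⁻¹ * y, by rw [MonoidHom.mem_ker, map_mul, map_inv, he, inv_mul_cancel], by group⟩
  have hcomm : commutator Γ ≤ φ.range := by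
    rw [commutator_def, Subgroup.commutator_le]
    intro y _ y' _
    obtain ⟨h, hh, a, ha, rfl⟩ := hdec y
    obtain ⟨h', hh', a', ha', rfl⟩ := hdec y'
    have c1 := mem_center_iff.1 (hc ha)
    have c2 := mem_center_iff.1 (hc ha')
    have e : ⁅h * a, h' * a'⁆ = ⁅h, h'⁆ := by
      rw [commutatorElement_def, commutatorElement_def]
      calc h * a * (h' * a') * (h * a)⁻¹ * (h' * a')⁻¹ = h * (a * (h' * a')) * a⁻¹ * h⁻¹ * (a'⁻¹ * h'⁻¹) := by group
        _ = h * (h' * a') * h⁻¹ * (a'⁻¹ * h'⁻¹) := by rw [← c1]; group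
        _ = h * h' * (a' * h⁻¹) * a'⁻¹ * h'⁻¹ := by group
        _ = h * h' * h⁻¹ * h'⁻¹ := by rw [← c2]; group
    rw [e, commutatorElement_def]
    exact mul_mem (mul_mem (mul_mem hh hh') (inv_mem hh)) (inv_mem hh')
  intro y
  obtain ⟨h, hh, a, ha, rfl⟩ := hdec y
  exact mul_mem hh (hcomm (hd ha))

theorem finite_of_bd {H : Type*} [Group H] {N : ℕ} (hb : Bd (⊤ : Subgroup H) N) : Finite H ∧ Nat.card H ≤ N := by
  obtain ⟨h1, h2⟩ := hb
  have : Finite H := Finite.of_equiv _ (Subgroup.topEquiv (G := H)).toEquiv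
  exact ⟨this, by rwa [Subgroup.card_top] at h2⟩

theorem card_eq_mul_ker {Γ : Type u} [Group Γ] {σ : Γ →* G} (hs : Function.Surjective σ) :
    Nat.card Γ = Nat.card G * Nat.card σ.ker := by
  rw [← σ.ker.card_mul_index, Subgroup.index_ker, MonoidHom.range_eq_top.2 hs, Nat.card_congr Subgroup.topEquiv.toEquiv,
    mul_comm]

/-- **Upper bound.** -/
theorem CP.card_ker_le (C : CP g ng l R1 R2 RL) {n m : ℕ} (hn : Nat.card G = n) (hn0 : 0 < n)
    (hb : Bd (⊤ : Subgroup (QG ng l RL)) (n * m))
    {Γ : Type u} [Group Γ] {σ : Γ →* G} (hσ : IsStemExtension σ) : Nat.card σ.ker ≤ m := by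
  obtain ⟨φ, hφ, -⟩ := C.exists_surj hσ
  obtain ⟨h1, h2⟩ := finite_of_bd hb
  have h3 : Nat.card Γ ≤ n * m := (Nat.card_le_card_of_surjective φ hφ).trans h2
  rw [card_eq_mul_ker hσ.1, hn] at h3
  exact Nat.le_of_mul_le_mul_left h3 hn0

/-- kill a letter -/
def kill {A : Type*} [Group A] (l : List (ℕ × ℕ)) (a : ℕ → A) (x : ℕ) : ℕ → A := adj l a x (a x)⁻¹

theorem kill_eq {A : Type*} [CommGroup A] {a : ℕ → A} (hi : ∀ y, a (ivL l y) = (a y)⁻¹) (x y : ℕ)
    (h : a y = 1 ∨ y = x ∨ y = ivL l x) : kill l a x y = 1 := by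
  unfold kill adj
  split_ifs with h1 h2
  · rw [h1, mul_inv_cancel]
  · rw [h2, hi, inv_inv, inv_mul_cancel]
  · rcases h with h | h | h
    · exact h
    · exact absurd h h1
    · exact absurd h h2

theorem kill_inv {A : Type*} [CommGroup A] {a : ℕ → A} (hlet : letB ng l = true) (hi : ∀ y, a (ivL l y) = (a y)⁻¹)
    (h1 : ∀ y, isLet ng y = false → a y = 1) {x : ℕ} (hx : isLet ng x = true) :
    (∀ y, kill l a x (ivL l y) = (kill l a x y)⁻¹) ∧ (∀ y, isLet ng y = false → kill l a x y = 1) := by
  have hf : LiftF (1 : A →* A) l ng (fun _ => 1) a := ⟨hi, h1, fun _ => rfl⟩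
  have := adj_liftF hlet hf hx (c := (a x)⁻¹) (fun h => mul_comm _ _) rfl
  exact ⟨this.inv, this.one⟩

theorem tri_trivial {A : Type*} [CommGroup A] (hlet : letB ng l = true) (R : List (ℕ × List ℕ)) :
    triB ng l R = true → ∀ a : ℕ → A, (∀ y, a (ivL l y) = (a y)⁻¹) → (∀ y, isLet ng y = false → a y = 1) →
      (∀ q ∈ R, (q.2.map a).prod = 1) → (∀ y, (∀ q ∈ R, y ≠ q.1 ∧ y ≠ ivL l q.1) → a y = 1) → ∀ y, a y = 1 := by
  induction R with
  | nil => intro _ a _ _ _ h y; exact h y (by simp)
  | cons q R ih =>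
    intro htri a hi h1 hR h0
    simp only [triB, Bool.and_eq_true, Bool.or_eq_true, beq_iff_eq, List.all_eq_true] at htri
    obtain ⟨⟨⟨hq, hk⟩, hrest⟩, htri2⟩ := htri
    -- killing letters with exponent zero
    have kk : ∀ L : List (ℕ × List ℕ), (∀ p ∈ L, isLet ng p.1 = true) → (∀ p ∈ L, expo l p.1 q.2 = 0) → ∀ b : ℕ → A,
        (∀ y, b (ivL l y) = (b y)⁻¹) → (∀ y, isLet ng y = false → b y = 1) →
        (∀ y, (∀ p ∈ L, y ≠ p.1 ∧ y ≠ ivL l p.1) → b y = 1) → (q.2.map b).prod = 1 := by
      intro L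
      induction L with
      | nil =>
        intro _ _ b _ _ hb
        have : q.2.map b = q.2.map (fun _ => (1 : A)) := List.map_congr_left (fun y _ => hb y (by simp))
        rw [this]; simp
      | cons p L ihL =>
        intro hl he b hbi hb1 hb
        obtain ⟨g1, g2⟩ := kill_inv hlet hbi hb1 (hl p (by simp))
        have h3 := ihL (fun p' hp' => hl p' (by simp [hp'])) (fun p' hp' => he p' (by simp [hp'])) (kill l b p.1) g1 g2 (by
          intro y hy
          apply kill_eq hbi
          by_cases h4 : y = p.1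
          · exact Or.inr (Or.inl h4)
          · by_cases h5 : y = ivL l p.1
            · exact Or.inr (Or.inr h5)
            · left
              apply hb
              intro p' hp'
              rcases List.mem_cons.1 hp' with rfl | hp'
              · exact ⟨h4, h5⟩
              · exact hy p' hp')
        unfold kill at h3
        rw [adj_prod _ (fun h => mul_comm _ _), he p (by simp), zpow_zero, mul_one] at h3
        exact h3
    have hRl : ∀ p ∈ R, isLet ng p.1 = true := by
      intro p hp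
      clear ih hR h0 hrest kk
      induction R with
      | nil => simp at hp
      | cons p' R ihR =>
        simp only [triB, Bool.and_eq_true, Bool.or_eq_true, beq_iff_eq, List.all_eq_true] at htri2
        rcases List.mem_cons.1 hp with rfl | hp
        · exact htri2.1.1.1
        · exact ihR htri2.2 hp
    obtain ⟨g1, g2⟩ := kill_inv hlet hi h1 hq
    have h3 := kk R hRl hrest (kill l a q.1) g1 g2 (by
      intro y hy
      apply kill_eq hi
      by_cases h4 : y = q.1
      · exact Or.inr (Or.inl h4)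
      · by_cases h5 : y = ivL l q.1
        · exact Or.inr (Or.inr h5)
        · left
          apply h0
          intro p' hp'
          rcases List.mem_cons.1 hp' with rfl | hp'
          · exact ⟨h4, h5⟩
          · exact hy p' hp')
    unfold kill at h3
    rw [adj_prod _ (fun h => mul_comm _ _), hR q (by simp), one_mul] at h3
    have hx : a q.1 = 1 := by
      rcases hk with hk | hk
      · rw [hk, zpow_one, inv_eq_one] at h3; exact h3
      · rw [hk, zpow_neg_one, inv_inv] at h3; exact h3
    apply ih htri2 a hi h1 (fun q' hq' => hR q' (by simp [hq']))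
    intro y hy
    by_cases h4 : y = q.1
    · rw [h4, hx]
    · by_cases h5 : y = ivL l q.1
      · rw [h5, hi, hx, inv_one]
      · apply h0
        intro p' hp'
        rcases List.mem_cons.1 hp' with rfl | hp'
        · exact ⟨h4, h5⟩
        · exact hy p' hp'

/-- a group with a triangular system of exact relators is perfect -/
theorem perfect_of_tri {H : Type*} [Group H] {h : ℕ → H} (htri : triB ng l R1 = true)
    (hcov : (List.range (ng + 1)).all (fun x => !isLet ng x || (R1.any fun q => q.1 == x || ivL l q.1 == x)) = true)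
    (hlet : letB ng l = true)
    (hi : ∀ y, h (ivL l y) = (h y)⁻¹) (hex : ∀ q ∈ R1, (q.2.map h).prod = 1) (h1 : ∀ y, isLet ng y = false → h y = 1)
    (htop : Cl h ng = ⊤) : commutator H = ⊤ := by
  have h2 := tri_trivial hlet R1 htri (fun y => Abelianization.of (h y)) (fun y => by rw [hi, map_inv])
    (fun y hy => by rw [h1 y hy, map_one]) (fun q hq => by
      have := congrArg (Abelianization.of (G := H)) (hex q hq)
      rw [map_list_prod, List.map_map, map_one] at this
      exact this) (by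
      intro y hy
      by_cases hyl : isLet ng y = true
      · exfalso
        rw [List.all_eq_true] at hcov
        have h3 := hcov y (by rw [List.mem_range]; have := isLet_iff.1 hyl; omega)
        rw [hyl] at h3
        simp only [Bool.not_true, Bool.false_or, List.any_eq_true, Bool.or_eq_true, beq_iff_eq] at h3
        obtain ⟨q, hq, h4⟩ := h3
        rcases h4 with h4 | h4
        · exact (hy q hq).1 h4.symm
        · exact (hy q hq).2 h4.symm
      · rw [h1 y (by simpa using hyl), map_one])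
  rw [eq_top_iff, ← htop, Cl, Subgroup.closure_le]
  rintro _ ⟨y, _, rfl⟩
  have h3 := h2 y
  exact (QuotientGroup.eq_one_iff _).1 h3

/-- the exact relators hold in the covering group -/
def exB (l : List (ℕ × ℕ)) (R1 : List (ℕ × List ℕ)) (RL : List (List ℕ × ℕ)) : Bool :=
  R1.all fun q => (RL.any fun p => p.2 == 1 && p.1 == red l q.2) || (red l q.2).isEmpty

/-- all commutators of central relators with letters hold in the covering group -/
def ceB (l : List (ℕ × ℕ)) (ng : ℕ) (R2 : List (List ℕ)) (RL : List (List ℕ × ℕ)) : Bool :=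
  R2.all fun w => (List.range (ng + 1)).all fun x => !isLet ng x || !(Nat.ble x (ivL l x)) ||
    (RL.any fun p => p.2 == 1 && p.1 == red l (cmW l w x)) || (red l (cmW l w x)).isEmpty

theorem qg_ex (h : exB l R1 RL = true) : ∀ q ∈ R1, (q.2.map (qg ng l RL)).prod = 1 := by
  intro q hq
  simp only [exB, List.all_eq_true, List.any_eq_true, Bool.and_eq_true, Bool.or_eq_true, beq_iff_eq,
    List.isEmpty_iff] at h
  rw [← red_prod (qg_good ng l RL).inv]
  rcases h q hq with ⟨p, hp, h2, h3⟩ | h3
  · have := (qg_good ng l RL).rel p hp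
    rw [h2, pow_one, h3] at this
    exact this
  · rw [h3]; simp

theorem comm_inv {H : Type*} [Group H] {a b : H} (h : a * b = b * a) : a * b⁻¹ = b⁻¹ * a := by
  rw [eq_inv_mul_iff_mul_eq, ← mul_assoc, ← h, mul_inv_cancel_right]

theorem qg_ce (hlet : letB ng l = true) (h : ceB l ng R2 RL = true) :
    ∀ w ∈ R2, ∀ y, (w.map (qg ng l RL)).prod * y = y * (w.map (qg ng l RL)).prod := by
  intro w hw
  have hI := (qg_good ng l RL).inv
  simp only [ceB, List.all_eq_true, List.any_eq_true, Bool.and_eq_true, Bool.or_eq_true, beq_iff_eq,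
    List.isEmpty_iff, Bool.not_eq_true'] at h
  have pos : ∀ x, isLet ng x = true → Nat.ble x (ivL l x) = true →
      (w.map (qg ng l RL)).prod * qg ng l RL x = qg ng l RL x * (w.map (qg ng l RL)).prod := by
    intro x hx hle
    have hr := h w hw x (by rw [List.mem_range]; have := isLet_iff.1 hx; omega)
    have h4 : ((red l (cmW l w x)).map (qg ng l RL)).prod = 1 := by
      rcases hr with ((hr | hr) | ⟨p, hp, h2, h3⟩) | h3
      · rw [hx] at hr; exact absurd hr (by decide)
      · rw [hle] at hr; exact absurd hr (by decide)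
      · have := (qg_good ng l RL).rel p hp
        rw [h2, pow_one, h3] at this
        exact this
      · rw [h3]; simp
    rw [red_prod hI, cmW_prod hI, mul_inv_eq_one, mul_inv_eq_iff_eq_mul] at h4
    exact h4
  have hlet' : ∀ x, (w.map (qg ng l RL)).prod * qg ng l RL x = qg ng l RL x * (w.map (qg ng l RL)).prod := by
    intro x
    by_cases hx : isLet ng x = true
    · by_cases hle : Nat.ble x (ivL l x) = true
      · exact pos x hx hle
      · have h5 := pos (ivL l x) (letB_let hlet hx).1 (by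
          rw [letB_iv hlet, Nat.ble_eq]
          rw [Nat.ble_eq] at hle
          omega)
        rw [hI] at h5
        have h6 := comm_inv h5
        rwa [inv_inv] at h6
    · rw [(qg_good ng l RL).one x (by simpa using hx)]; simp
  have hcen : (w.map (qg ng l RL)).prod ∈ Subgroup.center (QG ng l RL) := by
    rw [← Subgroup.centralizer_univ, ← Subgroup.coe_top, ← qg_top ng l RL]
    unfold Cl
    rw [Subgroup.centralizer_closure, Subgroup.mem_centralizer_iff]
    rintro _ ⟨x, _, rfl⟩
    exact (hlet' x).symm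
  intro y
  exact (Subgroup.mem_center_iff.1 hcen y).symm

/-- the subgroup generated by the central relators -/
def cenN (ng : ℕ) (l : List (ℕ × ℕ)) (R2 : List (List ℕ)) (RL : List (List ℕ × ℕ)) : Subgroup (QG ng l RL) :=
  Subgroup.closure {y | ∃ w ∈ R2, y = (w.map (qg ng l RL)).prod}

theorem cenN_le_center (hlet : letB ng l = true) (h : ceB l ng R2 RL = true) :
    cenN ng l R2 RL ≤ Subgroup.center (QG ng l RL) := by
  unfold cenN
  rw [Subgroup.closure_le]
  rintro _ ⟨w, hw, rfl⟩
  exact Subgroup.mem_center_iff.2 fun y => (qg_ce hlet h w hw y).symm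

/-- **The covering group.**  If the central relators generate a subgroup of order at least `m`, the universal group of the
central presentation is a stem extension with kernel this subgroup. -/
theorem CP.cover (C : CP g ng l R1 R2 RL) (hex : exB l R1 RL = true) (hce : ceB l ng R2 RL = true) {n m : ℕ}
    (hn : Nat.card G = n) (hn0 : 0 < n) (hb : Bd (⊤ : Subgroup (QG ng l RL)) (n * m))
    (hm : m ≤ Nat.card (cenN ng l R2 RL)) :
    ∃ σ : QG ng l RL →* G, IsStemExtension σ ∧ σ.ker = cenN ng l R2 RL ∧ Nat.card (cenN ng l R2 RL) = m ∧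
      ∀ x, σ (qg ng l RL x) = g x := by
  obtain ⟨σ, hσ⟩ := qg_univ C.good
  obtain ⟨hfin, hle⟩ := finite_of_bd hb
  have hs : Function.Surjective σ := by
    rw [← MonoidHom.range_eq_top, range_eq_Cl σ hσ (qg_top ng l RL), C.top]
  have hN : cenN ng l R2 RL ≤ σ.ker := by
    unfold cenN
    rw [Subgroup.closure_le]
    rintro _ ⟨w, hw, rfl⟩
    show (w.map (qg ng l RL)).prod ∈ σ.ker
    rw [MonoidHom.mem_ker, map_list_prod, List.map_map]
    have : (⇑σ ∘ qg ng l RL) = g := funext hσ
    rw [this]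
    exact C.ce w hw
  have h1 : Nat.card σ.ker ≤ m := by
    rw [card_eq_mul_ker hs, hn] at hle
    exact Nat.le_of_mul_le_mul_left hle hn0
  have h2 : Nat.card (cenN ng l R2 RL) ≤ Nat.card σ.ker := Subgroup.card_le_of_le hN
  have h3 : σ.ker = cenN ng l R2 RL := (Subgroup.eq_of_le_of_card_ge hN (by omega)).symm
  refine ⟨σ, ⟨hs, ?_, ?_⟩, h3, by rw [← h3] at hm ⊢; omega, hσ⟩
  · rw [h3]; exact cenN_le_center C.lets hce
  · rw [perfect_of_tri C.tri C.cov C.lets (qg_good ng l RL).inv (qg_ex hex) (qg_good ng l RL).one (qg_top ng l RL)]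
    exact le_top

/-- **Main theorem.** -/
theorem CP.main (C : CP g ng l R1 R2 RL) (hex : exB l R1 RL = true) (hce : ceB l ng R2 RL = true) {n : ℕ}
    {A : Type*} [CommGroup A] [Finite A]
    (hn : Nat.card G = n) (hn0 : 0 < n) (hb : Bd (⊤ : Subgroup (QG ng l RL)) (n * Nat.card A))
    (hm : Nat.card A ≤ Nat.card (cenN ng l R2 RL))
    (hA : Nat.card (cenN ng l R2 RL) = Nat.card A → Nonempty (cenN ng l R2 RL ≃* A)) : HasSchurMultiplier G A := by
  obtain ⟨σ, h1, h2, h3, -⟩ := C.cover hex hce hn hn0 hb hm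
  obtain ⟨hfin, -⟩ := finite_of_bd hb
  apply Cfsg.Agent.SchurMult.hasSchurMultiplier_of_card_le
  · refine ⟨QG ng l RL, inferInstance, hfin, σ, h1, ?_⟩
    rw [h2]
    exact hA h3
  · intro Γ _ _ τ hτ
    exact C.card_ker_le hn hn0 hb hτ

end

end Cfsg.Agent.MulX
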