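import Cfsg.Agent.MulX.TabFam

/-!
Central presentations of groups related to permutation tables by a subgroup of `G × Perm (Fin n)` (owner: helper58).
-/
set_option autoImplicit false

namespace Cfsg.Agent.MulX

open Cfsg.Agent.CosetEnum Cfsg.Agent.PermTab Cfsg.Agent.LE Subgroup

/-- The letters `g` correspond to the tables `tb` under the bijective correspondence `D`. -/
structure RepT {G : Type*} [Group G] (w n : ℕ) (tb : ℕ → ℕ) (g : ℕ → G) (D : Subgroup (G × Equiv.Perm (Fin n))) : Prop where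
  valid : ∀ x, tvalid w n (tb x) = true
  mem : ∀ x, (g x, toPerm w n (tb x)) ∈ D
  faith : ∀ a : G, (a, 1) ∈ D → a = 1
  fn : ∀ σ : Equiv.Perm (Fin n), ((1 : G), σ) ∈ D → σ = 1

section

variable {G : Type*} [Group G] {w n idt : ℕ} {tb : ℕ → ℕ} {g : ℕ → G} {D : Subgroup (G × Equiv.Perm (Fin n))}

theorem RepT.inGrp (A : RepT w n tb g D) (x : ℕ) : InGrp w n ⊤ (tb x) := ⟨A.valid x, mem_top _⟩

theorem RepT.word (A : RepT w n tb g D) (hn : n ≤ 2 ^ w) (hid : idt = tid w n) (u : List ℕ) :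
    ((u.map g).prod, toPerm w n (tword w n idt tb u)) ∈ D := by
  induction u with
  | nil =>
    rw [tword_nil, hid, (toPerm_tid hn).2]
    exact one_mem D
  | cons x u ih =>
    rw [List.map_cons, List.prod_cons, tword_cons, toPerm_tmul (A.valid x) (tword_spec hn hid A.inGrp u).1]
    exact mul_mem (A.mem x) ih

theorem RepT.word_one (A : RepT w n tb g D) (hn : n ≤ 2 ^ w) (hid : idt = tid w n) {u : List ℕ}
    (hu : tword w n idt tb u = idt) : (u.map g).prod = 1 := by
  apply A.faith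
  have h := A.word hn hid u
  rwa [hu, hid, (toPerm_tid hn).2] at h

theorem RepT.lift (A : RepT w n tb g D) {ng : ℕ} {σ : Equiv.Perm (Fin n)}
    (hσ : σ ∈ closure {x | ∃ y, isLet ng y = true ∧ x = toPerm w n (tb y)}) :
    ∃ a ∈ Cl g ng, (a, σ) ∈ D := by
  induction hσ using closure_induction with
  | mem x hx =>
    obtain ⟨y, hy, rfl⟩ := hx
    exact ⟨g y, subset_closure ⟨y, hy, rfl⟩, A.mem y⟩
  | one => exact ⟨1, one_mem _, one_mem D⟩
  | mul x y _ _ ihx ihy =>
    obtain ⟨a, ha, ha'⟩ := ihx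
    obtain ⟨b, hb, hb'⟩ := ihy
    exact ⟨a * b, mul_mem ha hb, mul_mem ha' hb'⟩
  | inv x _ ihx =>
    obtain ⟨a, ha, ha'⟩ := ihx
    exact ⟨a⁻¹, inv_mem ha, inv_mem ha'⟩

theorem RepT.card_le (A : RepT w n tb g D) [Finite G] {ng : ℕ} {J : Subgroup (Equiv.Perm (Fin n))}
    (hJ : J ≤ closure {x | ∃ y, isLet ng y = true ∧ x = toPerm w n (tb y)}) : Nat.card J ≤ Nat.card (Cl g ng) := by
  have h : ∀ σ : J, ∃ a : Cl g ng, ((a : G), (σ : Equiv.Perm (Fin n))) ∈ D := by
    intro σ
    obtain ⟨a, ha, ha'⟩ := A.lift (hJ σ.2)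
    exact ⟨⟨a, ha⟩, ha'⟩
  choose f hf using h
  apply Nat.card_le_card_of_injective f
  intro σ τ hστ
  apply Subtype.ext
  have h1 := hf σ
  rw [hστ] at h1
  have h2 := D.mul_mem (D.inv_mem (hf τ)) h1
  have h3 : (((f τ : Cl g ng) : G), (τ : Equiv.Perm (Fin n)))⁻¹ * (((f τ : Cl g ng) : G), (σ : Equiv.Perm (Fin n))) =
      (1, (τ : Equiv.Perm (Fin n))⁻¹ * σ) := by
    apply Prod.ext
    · simp
    · rfl
  rw [h3] at h2
  exact (inv_mul_eq_one.1 (A.fn _ h2)).symm

theorem words_closure {w n idt : ℕ} {tb : ℕ → ℕ} (hv : ∀ x, tvalid w n (tb x) = true) (hn : n ≤ 2 ^ w)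
    (hid : idt = tid w n) {ng : ℕ} (u : List ℕ) (hu : u.all (fun x => isLet ng x) = true) :
    toPerm w n (tword w n idt tb u) ∈ closure {x | ∃ y, isLet ng y = true ∧ x = toPerm w n (tb y)} := by
  induction u with
  | nil =>
    rw [tword_nil, hid, (toPerm_tid hn).2]
    exact one_mem _
  | cons x u ih =>
    rw [List.all_cons, Bool.and_eq_true] at hu
    rw [tword_cons, toPerm_tmul (hv x) (tword_spec (H := ⊤) hn hid (fun x => ⟨hv x, mem_top _⟩) u).1]
    exact mul_mem (subset_closure ⟨x, hu.1, rfl⟩) (ih hu.2)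

theorem grp_le_words {w n idt : ℕ} {tb : ℕ → ℕ} (hv : ∀ x, tvalid w n (tb x) = true) (hn : n ≤ 2 ^ w)
    (hid : idt = tid w n) {ng : ℕ} {lev : Lev} {L : List Lev}
    {ws : List (List ℕ)} (hws : lev.gens = ws.map (tword w n idt tb))
    (hlet : ws.all (fun u => u.all fun x => isLet ng x) = true) :
    grp w n (lev :: L) ≤ closure {x | ∃ y, isLet ng y = true ∧ x = toPerm w n (tb y)} := by
  show grpOf w n lev.gens ≤ _
  unfold grpOf
  rw [closure_le]
  rintro _ ⟨t, ht, rfl⟩
  rw [hws] at ht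
  obtain ⟨u, hu, rfl⟩ := List.mem_map.1 ht
  rw [List.all_eq_true] at hlet
  exact words_closure hv hn hid u (hlet u hu)

/-- generation from a stabiliser chain -/
theorem RepT.top (A : RepT w n tb g D) [Finite G] (hn : n ≤ 2 ^ w) (hid : idt = tid w n) {ng : ℕ} {lev : Lev}
    {L : List Lev} (hc : chkChain w n idt (lev :: L) = true)
    {ws : List (List ℕ)} (hws : lev.gens = ws.map (tword w n idt tb))
    (hlet : ws.all (fun u => u.all fun x => isLet ng x) = true) (hcard : Nat.card G ≤ chainCard n (lev :: L)) :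
    Cl g ng = ⊤ := by
  have h1 := A.card_le (grp_le_words A.valid hn hid (L := L) hws hlet)
  rw [card_grp hn hid _ hc] at h1
  exact Subgroup.eq_top_of_le_card _ (hcard.trans h1)

theorem RepT.cp (A : RepT w n tb g D) (hn : n ≤ 2 ^ w) (hid : idt = tid w n) {ng : ℕ}
    {iv : List (ℕ × ℕ)} {R1 : List (ℕ × List ℕ)} {R2 : List (List ℕ)} {RL : List (List ℕ × ℕ)}
    (hlet : letB ng iv = true) (htri : triB ng iv R1 = true) (hrel : relB iv ng R1 R2 RL = true)
    (hcov : (List.range (ng + 1)).all (fun x => !isLet ng x || (R1.any fun q => q.1 == x || ivL iv q.1 == x)) = true)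
    (hinv : ∀ x ≤ ng, tmul w n (tb (ivL iv x)) (tb x) = idt)
    (h0 : tb 0 = idt) (hone : ∀ x, ng < x → tb x = idt)
    (hR1 : trivTB w n idt tb (R1.map Prod.snd) = true) (hR2 : trivTB w n idt tb R2 = true)
    (htop : Cl g ng = ⊤) : CP g ng iv R1 R2 RL := by
  have hone' : ∀ x, tb x = idt → g x = 1 := by
    intro x hx
    apply A.faith
    have h := A.mem x
    rwa [hx, hid, (toPerm_tid hn).2] at h
  have hnot : ∀ y, isLet ng y = false → tb y = idt := by
    intro y hy
    rcases Nat.eq_zero_or_pos y with rfl | h1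
    · exact h0
    · apply hone
      by_contra hc
      rw [isLet_iff.2 ⟨h1, by omega⟩] at hy
      exact Bool.noConfusion hy
  refine ⟨hlet, htri, hrel, hcov, ?_, fun y hy => hone' y (hnot y hy), ?_, ?_, htop⟩
  · intro x
    by_cases hx : x ≤ ng
    · have h1 := hinv x hx
      rw [eq_inv_iff_mul_eq_one]
      apply A.faith
      have h2 := D.mul_mem (A.mem (ivL iv x)) (A.mem x)
      have h3 : (g (ivL iv x), toPerm w n (tb (ivL iv x))) * (g x, toPerm w n (tb x)) =
        (g (ivL iv x) * g x, toPerm w n (tb (ivL iv x)) * toPerm w n (tb x)) := rfl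
      rw [h3, ← toPerm_tmul (A.valid _) (A.valid _), h1, hid, (toPerm_tid hn).2] at h2
      exact h2
    · have hx' : isLet ng x = false := by
        by_contra hc
        rw [Bool.not_eq_false] at hc
        have := (isLet_iff.1 hc).2
        omega
      rw [hone' x (hone x (by omega)), hone' _ (hnot _ (letB_out hlet hx')), inv_one]
  · intro q hq
    exact A.word_one hn hid (Nat.eq_of_beq_eq_true ((lall_iff _ _).1 hR1 q.2 (List.mem_map.2 ⟨q, hq, rfl⟩)))
  · intro u hu
    exact A.word_one hn hid (Nat.eq_of_beq_eq_true ((lall_iff _ _).1 hR2 u hu))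

end

/-- trivial centraliser of a transitive group given by a chain -/
theorem centralizer_trivial {w n idt : ℕ} (hn : n ≤ 2 ^ w) (hid : idt = tid w n) {lev lev' : Lev} {L : List Lev}
    (hc : chkChain w n idt (lev :: lev' :: L) = true)
    (htr : nall (fun β => isLeaf (findT lev.T β)) n = true)
    (hmv : nall (fun β => Nat.beq β lev.b || lany lev'.gens fun t => !(Nat.beq (tget w t β) β)) n = true)
    (σ : Equiv.Perm (Fin n)) (hσ : ∀ τ ∈ grp w n (lev :: lev' :: L), σ * τ = τ * σ) : σ = 1 := by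
  have C := levConcl_of_chk hn hid hc
  rw [nall_iff] at htr hmv
  set b : Fin n := ⟨lev.b, C.bn⟩ with hb
  have h1 : σ b = b := by
    by_contra hne
    have h2 := hmv (σ b) (σ b).2
    rw [Bool.or_eq_true] at h2
    rcases h2 with h2 | h2
    · exact hne (Fin.ext (Nat.eq_of_beq_eq_true h2))
    · rw [lany_iff] at h2
      obtain ⟨t, ht, h3⟩ := h2
      have hc' := (chkChain_cons _ _ _ _ _).1 hc
      have hc'' := (chkChain_cons _ _ _ _ _).1 hc'.2.2
      have hv : tvalid w n t = true := (levOK_of_chk hc''.2.1).gensValid t ht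
      have hm : toPerm w n t ∈ grp w n (lev' :: L) := subset_closure ⟨t, ht, rfl⟩
      have hfix : toPerm w n t b = b := (C.stab _ (C.le hm)).2 hm
      have h4 := congrArg (fun p : Equiv.Perm (Fin n) => p b) (hσ _ (C.le hm))
      simp only [Equiv.Perm.mul_apply, hfix] at h4
      have h5 : tget w t (σ b) = (σ b : ℕ) := by
        rw [← toPerm_apply hv, ← h4]
      rw [h5, Nat.beq_refl] at h3
      exact absurd h3 (by decide)
  ext j
  have h2 : j ∈ MulAction.orbit (grp w n (lev :: lev' :: L)) b := by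
    rw [C.orbit]
    exact (inT_iff _ _).2 (htr j j.2)
  obtain ⟨τ, hτ⟩ := h2
  have h3 : (τ : Equiv.Perm (Fin n)) b = j := hτ
  have h4 := congrArg (fun p : Equiv.Perm (Fin n) => p b) (hσ _ τ.2)
  simp only [Equiv.Perm.mul_apply, h1, h3] at h4
  rw [h4]; rfl

section Act

variable {G Ω : Type*} [Group G] [MulAction G Ω] {n : ℕ}

/-- correspondence given by an action on labelled points -/
def actD (G : Type*) {Ω : Type*} [Group G] [MulAction G Ω] {n : ℕ} (pt : Fin n → Ω) : Subgroup (G × Equiv.Perm (Fin n)) where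
  carrier := {p | ∀ i, p.1 • pt i = pt (p.2 i)}
  one_mem' := fun i => by simp
  mul_mem' := by
    rintro ⟨a, σ⟩ ⟨b, τ⟩ ha hb i
    show (a * b) • pt i = pt (σ (τ i))
    rw [mul_smul, hb i]
    exact ha (τ i)
  inv_mem' := by
    rintro ⟨a, σ⟩ ha i
    show a⁻¹ • pt i = pt ((σ⁻¹ : Equiv.Perm (Fin n)) i)
    rw [inv_smul_eq_iff]
    have h := ha ((σ⁻¹ : Equiv.Perm (Fin n)) i)
    rw [show a • pt ((σ⁻¹ : Equiv.Perm (Fin n)) i) = pt (σ ((σ⁻¹ : Equiv.Perm (Fin n)) i)) from h]
    exact congrArg pt (Equiv.apply_symm_apply σ i).symm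

theorem RepT.of_act {w : ℕ} {tb : ℕ → ℕ} {g : ℕ → G} {pt : Fin n → Ω} (hv : ∀ x, tvalid w n (tb x) = true)
    (hact : ∀ x i, g x • pt i = pt (toPerm w n (tb x) i)) (hinj : Function.Injective pt)
    (hfaith : ∀ a : G, (∀ i, a • pt i = pt i) → a = 1) : RepT w n tb g (actD G pt) := by
  refine ⟨hv, hact, fun a ha => hfaith a ha, fun σ h => ?_⟩
  ext i
  have h1 : (1 : G) • pt i = pt (σ i) := h i
  rw [one_smul] at h1
  rw [← hinj h1]; rfl

end Act

section Quot

variable {S : Type*} [Group S] {w n : ℕ} {tb : ℕ → ℕ} {g : ℕ → S}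

/-- the correspondence of the central quotient -/
def quotD (D : Subgroup (S × Equiv.Perm (Fin n))) : Subgroup ((S ⧸ center S) × Equiv.Perm (Fin n)) :=
  D.map (MonoidHom.prodMap (QuotientGroup.mk' (center S)) (MonoidHom.id _))

/-- correspondence for the quotient by the centre -/
theorem RepT.of_quot {idt : ℕ} {D : Subgroup (S × Equiv.Perm (Fin n))} (hn : n ≤ 2 ^ w) (hid : idt = tid w n)
    (hv : ∀ x, tvalid w n (tb x) = true)
    (hmem : ∀ x, (g x, toPerm w n (tb x)) ∈ D) (hce : ∀ a : S, (a, 1) ∈ D → a ∈ center S)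
    (hfn : ∀ σ : Equiv.Perm (Fin n), ((1 : S), σ) ∈ D → σ = 1) {ng : ℕ}
    {lev lev' : Lev} {L : List Lev} (hc : chkChain w n idt (lev :: lev' :: L) = true)
    (htr : nall (fun β => isLeaf (findT lev.T β)) n = true)
    (hmv : nall (fun β => Nat.beq β lev.b || lany lev'.gens fun t => !(Nat.beq (tget w t β) β)) n = true)
    {ws : List (List ℕ)} (hws : lev.gens = ws.map (tword w n idt tb))
    (hlet : ws.all (fun u => u.all fun x => isLet ng x) = true) :
    RepT w n tb (fun x => (QuotientGroup.mk' (center S)) (g x)) (quotD D) := by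
  refine ⟨hv, fun x => ⟨_, hmem x, rfl⟩, ?_, ?_⟩
  · rintro a ⟨⟨b, τ⟩, hb, he⟩
    have h1 : (QuotientGroup.mk' (center S)) b = a := congrArg Prod.fst he
    have h2 : τ = 1 := congrArg Prod.snd he
    subst h2
    rw [← h1]
    exact (QuotientGroup.eq_one_iff b).2 (hce b hb)
  · rintro σ ⟨⟨b, τ⟩, hb, he⟩
    have h1 : (QuotientGroup.mk' (center S)) b = 1 := congrArg Prod.fst he
    have h2 : τ = σ := congrArg Prod.snd he
    subst h2
    have hbc : b ∈ center S := (QuotientGroup.eq_one_iff b).1 h1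
    apply centralizer_trivial hn hid hc htr hmv
    intro π hπ
    have hπ' := grp_le_words hv hn hid (L := lev' :: L) hws hlet hπ
    have hcom : ∀ π ∈ closure {x | ∃ y, isLet ng y = true ∧ x = toPerm w n (tb y)}, ∃ a : S, (a, π) ∈ D := by
      intro π hπ
      induction hπ using closure_induction with
      | mem x hx =>
        obtain ⟨y, _, rfl⟩ := hx
        exact ⟨g y, hmem y⟩
      | one => exact ⟨1, one_mem D⟩
      | mul x y _ _ ihx ihy =>
        obtain ⟨a, ha⟩ := ihx
        obtain ⟨b, hb⟩ := ihy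
        exact ⟨a * b, D.mul_mem ha hb⟩
      | inv x _ ihx =>
        obtain ⟨a, ha⟩ := ihx
        exact ⟨a⁻¹, D.inv_mem ha⟩
    obtain ⟨a, ha⟩ := hcom π hπ'
    have h3 := D.mul_mem (D.mul_mem (D.mul_mem hb ha) (D.inv_mem hb)) (D.inv_mem ha)
    have h4 : (b, τ) * (a, π) * (b, τ)⁻¹ * (a, π)⁻¹ = (1, τ * π * τ⁻¹ * π⁻¹) := by
      apply Prod.ext
      · show b * a * b⁻¹ * a⁻¹ = 1
        rw [← mem_center_iff.1 hbc a]; group
      · rfl
    rw [h4] at h3
    have h5 := hfn _ h3
    rw [mul_inv_eq_one, mul_inv_eq_iff_eq_mul] at h5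
    exact h5

end Quot

end Cfsg.Agent.MulX
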