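import Cfsg.Agent.MulX.Main

/-!
Orders of central elements from permutation tables of the covering group (owner: helper58).
-/
set_option autoImplicit false

namespace Cfsg.Agent.MulX

open Cfsg.Agent.CosetEnum Cfsg Subgroup

/-- apply the word `c` `k` times -/
noncomputable def itA (P : Par) (c : List ℕ) (i : ℕ) (k : ℕ) : ℕ :=
  @Nat.rec (fun _ => ℕ) i (fun _ ih => actW P c ih) k

/-- the cycle of `i` under the word `c` has length exactly `m` -/
noncomputable def perB (P : Par) (c : List ℕ) (m i : ℕ) : Bool :=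
  Nat.beq (itA P c i m) i && (List.range m).all fun d => Nat.beq d 0 || !(Nat.beq (m % d) 0) || !(Nat.beq (itA P c i d) i)

section

variable {ng : ℕ} {l : List (ℕ × ℕ)} {RL : List (List ℕ × ℕ)} {P : Par} {lets : List ℕ}

theorem dvd_orderOf (T : TabOK P ng l lets RL) {c : List ℕ} (hc : wOK ng c = true) {m i : ℕ} (hm : 0 < m) (hi : i < P.m)
    (h : perB P c m i = true) : m ∣ orderOf ((c.map (qg ng l RL)).prod) := by
  obtain ⟨A, hA, -⟩ := T.exists_action (univ_qg ng l RL)
  have hu : ∀ x ∈ c, x ∈ lets := by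
    intro x hx
    simp only [wOK, List.all_eq_true] at hc
    exact T.mem_iff.2 (hc x hx)
  set a : QG ng l RL := ((c.map (qg ng l RL)).prod)⁻¹ with ha
  have hact : ∀ j : Fin P.m, ((a • j : Fin P.m) : ℕ) = actW P c j := by
    intro j
    have := hA.word hu j
    rw [val_inv] at this
    exact this
  have hk : ∀ k : ℕ, ((a ^ k • (⟨i, hi⟩ : Fin P.m) : Fin P.m) : ℕ) = itA P c i k := by
    intro k
    induction k with
    | zero => rw [pow_zero, one_smul]; rfl
    | succ k ih =>
      rw [pow_succ', mul_smul, hact, ih]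
      rfl
  simp only [perB, Bool.and_eq_true, List.all_eq_true, Bool.or_eq_true] at h
  obtain ⟨h1, h2⟩ := h
  have h3 : MulAction.period a (⟨i, hi⟩ : Fin P.m) ∣ m := by
    apply MulAction.pow_smul_eq_iff_period_dvd.1
    apply Fin.ext
    rw [hk]
    exact Nat.eq_of_beq_eq_true h1
  have h4 : MulAction.period a (⟨i, hi⟩ : Fin P.m) = m := by
    by_contra hne
    set d := MulAction.period a (⟨i, hi⟩ : Fin P.m) with hd
    have hd0 : d ≠ 0 := by
      intro h0
      rw [h0, zero_dvd_iff] at h3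
      omega
    have hlt : d < m := lt_of_le_of_ne (Nat.le_of_dvd hm h3) hne
    rcases h2 d (List.mem_range.2 hlt) with (h5 | h5) | h5
    · exact hd0 (Nat.eq_of_beq_eq_true h5)
    · have : m % d = 0 := Nat.mod_eq_zero_of_dvd h3
      rw [this] at h5
      exact absurd h5 (by decide)
    · have h6 : ((a ^ d • (⟨i, hi⟩ : Fin P.m) : Fin P.m) : ℕ) = i := by
        rw [hd, MulAction.pow_period_smul]
      rw [hk] at h6
      rw [h6, Nat.beq_refl] at h5
      exact absurd h5 (by decide)
  rw [← h4]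
  have h5 := MulAction.period_dvd_orderOf a (⟨i, hi⟩ : Fin P.m)
  rw [ha, orderOf_inv] at h5
  exact h5

/-- the word `c` fixes the points of the table -/
theorem fixes (T : TabOK P ng l lets RL) {c : List ℕ} (hc : wOK ng c = true) :
    ∃ ψ : QG ng l RL →* Equiv.Perm (Fin P.m), ∀ i : Fin P.m,
      ((ψ ((c.map (qg ng l RL)).prod)⁻¹ i : Fin P.m) : ℕ) = actW P c i := by
  obtain ⟨A, hA, φ, hφ, hφA⟩ := T.exists_action (univ_qg ng l RL)
  have hu : ∀ x ∈ c, x ∈ lets := by
    intro x hx
    simp only [wOK, List.all_eq_true] at hc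
    exact T.mem_iff.2 (hc x hx)
  refine ⟨φ, fun j => ?_⟩
  have := hA.word hu j
  rw [val_inv] at this
  rw [← this]
  exact congrArg _ (hφA _ j).symm

end

theorem words_mem {ng : ℕ} {l : List (ℕ × ℕ)} {RL : List (List ℕ × ℕ)} {R2 : List (List ℕ)} {ws : List (List ℕ)}
    (h : ∀ w ∈ ws, w ∈ R2) : ((ws.flatten).map (qg ng l RL)).prod ∈ cenN ng l R2 RL := by
  induction ws with
  | nil => simp
  | cons w ws ih =>
    rw [List.flatten_cons, List.map_append, List.prod_append]
    exact mul_mem (Subgroup.subset_closure ⟨w, h w (by simp), rfl⟩) (ih fun w' hw' => h w' (by simp [hw']))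

/-- cyclic case: an element of order divisible by `m` -/
theorem cyclic_card {H : Type*} [Group H] {N : Subgroup H} [Finite N] {c : H} (hc : c ∈ N) {m : ℕ} (h : m ∣ orderOf c) :
    m ≤ Nat.card N := by
  have h1 : orderOf (⟨c, hc⟩ : N) = orderOf c := Subgroup.orderOf_mk _ _
  have h2 : orderOf c ∣ Nat.card N := by rw [← h1]; exact orderOf_dvd_natCard _
  exact Nat.le_of_dvd Nat.card_pos (h.trans h2)

theorem cyclic_iso {H : Type*} [Group H] {N : Subgroup H} {c : H} (hc : c ∈ N) {m : ℕ} (hm : 0 < m) (h : m ∣ orderOf c)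
    (hN : Nat.card N = m) : Nonempty (N ≃* Multiplicative (ZMod m)) := by
  have hfin : Finite N := Nat.finite_of_card_ne_zero (by omega)
  have h1 : orderOf (⟨c, hc⟩ : N) = orderOf c := Subgroup.orderOf_mk _ _
  have h2 : orderOf (⟨c, hc⟩ : N) = Nat.card N := by
    rw [h1]
    apply Nat.dvd_antisymm
    · rw [← h1]; exact orderOf_dvd_natCard _
    · rw [hN]; exact h
  have hcyc : IsCyclic N := isCyclic_of_orderOf_eq_card _ h2
  exact ⟨mulEquivOfCyclicCardEq (by rw [hN, Nat.card_congr Multiplicative.toAdd, Nat.card_zmod])⟩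

section

variable {G : Type*} [Group G] {g : ℕ → G} {ng : ℕ} {l : List (ℕ × ℕ)} {R1 : List (ℕ × List ℕ)}
  {R2 : List (List ℕ)} {RL : List (List ℕ × ℕ)}

/-- **Cyclic multiplier.** -/
theorem CP.cyclic (C : CP g ng l R1 R2 RL) (hex : exB l R1 RL = true) (hce : ceB l ng R2 RL = true) {n m : ℕ}
    (hn : Nat.card G = n) (hn0 : 0 < n) (hm0 : 0 < m) (hb : Bd (⊤ : Subgroup (QG ng l RL)) (n * m))
    {ws : List (List ℕ)} (hws : ∀ w ∈ ws, w ∈ R2) (hord : m ∣ orderOf (((ws.flatten).map (qg ng l RL)).prod)) :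
    HasCyclicSchurMultiplier G m := by
  have hcard : Nat.card (Multiplicative (ZMod m)) = m := by
    rw [Nat.card_congr Multiplicative.toAdd, Nat.card_zmod]
  have : NeZero m := ⟨by omega⟩
  have hfinA : Finite (Multiplicative (ZMod m)) := Finite.of_equiv (ZMod m) Multiplicative.ofAdd
  obtain ⟨hfin, -⟩ := finite_of_bd hb
  have hmem := words_mem (ng := ng) (l := l) (RL := RL) hws
  refine C.main hex hce hn hn0 (by rw [hcard]; exact hb) ?_ ?_
  · rw [hcard]; exact cyclic_card hmem hord
  · intro h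
    rw [hcard] at h
    exact cyclic_iso hmem hm0 hord h

end

end Cfsg.Agent.MulX
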