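import Cfsg.Agent.MulX.Tab
import Cfsg.Agent.LE.TabGood

/-!
Presentations of groups of table permutations (owner: helper58).
-/
set_option autoImplicit false

namespace Cfsg.Agent.MulX

open Cfsg.Agent.CosetEnum Cfsg.Agent.PermTab Cfsg.Agent.LE

variable {w n idt : ℕ} {H : Subgroup (Equiv.Perm (Fin n))} {tb : ℕ → ℕ}

/-- check of trivial words -/
def trivTB (w n idt : ℕ) (tb : ℕ → ℕ) (L : List (List ℕ)) : Bool :=
  lall L fun u => Nat.beq (tword w n idt tb u) idt

theorem word_eq_one (hn : n ≤ 2 ^ w) (hid : idt = tid w n) (h : ∀ x, InGrp w n H (tb x)) {u : List ℕ}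
    (hu : tword w n idt tb u = idt) : (u.map (tfam h)).prod = 1 := by
  have h3 := tword_spec hn hid h u
  rw [hu, hid, (toPerm_tid hn).2] at h3
  exact Subtype.ext h3.2.symm

theorem cp_of_tab (hn : n ≤ 2 ^ w) (hid : idt = tid w n) (h : ∀ x, InGrp w n H (tb x)) {ng : ℕ}
    {iv : List (ℕ × ℕ)} {R1 : List (ℕ × List ℕ)} {R2 : List (List ℕ)} {RL : List (List ℕ × ℕ)}
    (hlet : letB ng iv = true) (htri : triB ng iv R1 = true) (hrel : relB iv ng R1 R2 RL = true)
    (hcov : (List.range (ng + 1)).all (fun x => !isLet ng x || (R1.any fun q => q.1 == x || ivL iv q.1 == x)) = true)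
    (hinv : ∀ x ≤ ng, tmul w n (tb (ivL iv x)) (tb x) = idt)
    (h0 : tb 0 = idt) (hone : ∀ x, ng < x → tb x = idt)
    (hR1 : trivTB w n idt tb (R1.map Prod.snd) = true) (hR2 : trivTB w n idt tb R2 = true)
    (htop : Cl (tfam h) ng = ⊤) : CP (tfam h) ng iv R1 R2 RL := by
  have hone' : ∀ x, tb x = idt → tfam h x = 1 := by
    intro x hx
    apply Subtype.ext
    show toPerm w n (tb x) = 1
    rw [hx, hid]; exact (toPerm_tid hn).2
  have hnot : ∀ y, isLet ng y = false → tb y = idt := by
    intro y hy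
    rcases Nat.eq_zero_or_pos y with rfl | h1
    · exact h0
    · apply hone
      by_contra hc
      rw [isLet_iff.2 ⟨h1, by omega⟩] at hy
      exact Bool.noConfusion hy
  refine ⟨hlet, htri, hrel, hcov, ?_, fun y hy => hone' y (hnot y hy), ?_, ?_, htop⟩
  · intro x
    by_cases hx : x ≤ ng
    · have h1 := hinv x hx
      rw [eq_inv_iff_mul_eq_one]
      apply Subtype.ext
      show toPerm w n (tb (ivL iv x)) * toPerm w n (tb x) = 1
      rw [← toPerm_tmul (h _).1 (h _).1, h1, hid]; exact (toPerm_tid hn).2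
    · have hx' : isLet ng x = false := by
        by_contra hc
        rw [Bool.not_eq_false] at hc
        have := (isLet_iff.1 hc).2
        omega
      rw [hone' x (hone x (by omega)), hone' _ (hnot _ (letB_out hlet hx')), inv_one]
  · intro q hq
    exact word_eq_one hn hid h (Nat.eq_of_beq_eq_true ((lall_iff _ _).1 hR1 q.2 (List.mem_map.2 ⟨q, hq, rfl⟩)))
  · intro u hu
    exact word_eq_one hn hid h (Nat.eq_of_beq_eq_true ((lall_iff _ _).1 hR2 u hu))

end Cfsg.Agent.MulX
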